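import Mathlib
import Cfsg.Prelude.Def_Local
import Cfsg.Prelude.Def_Solvable
import Cfsg.Agent.Lib.Helper31.EvenChar

set_option autoImplicit false

/-! Thompson–Wielandt, iterated-core form (S5752): definitions, basic lemmas and the
normalizer-growth lemma `Cfg.lemN`. -/

namespace Cfsg.Agent.Lib.Helper49.TW

open Cfsg Cfsg.Agent.Lib.Helper31

universe u

variable {G : Type u} [Group G]

/-- The core in `M` of `K ⊓ M`, as a subgroup of `G`. -/
def coreIn (K M : Subgroup G) : Subgroup G := ((K.subgroupOf M).normalCore).map M.subtype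

theorem mem_coreIn_iff {K M : Subgroup G} {x : G} :
    x ∈ coreIn K M ↔ x ∈ M ∧ ∀ m ∈ M, m * x * m⁻¹ ∈ K := by
  constructor
  · rintro ⟨y, hy, rfl⟩
    refine ⟨y.2, fun m hm => ?_⟩
    have h1 : (⟨m, hm⟩ : ↥M) * y * (⟨m, hm⟩ : ↥M)⁻¹ ∈ K.subgroupOf M := hy ⟨m, hm⟩
    exact Subgroup.mem_subgroupOf.mp h1
  · rintro ⟨hx, h⟩
    refine ⟨⟨x, hx⟩, ?_, rfl⟩
    intro b
    exact Subgroup.mem_subgroupOf.mpr (h b b.2)

theorem coreIn_le_left (K M : Subgroup G) : coreIn K M ≤ K := fun x hx => by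
  have h1 := (mem_coreIn_iff.mp hx).2 1 M.one_mem
  simpa using h1

theorem coreIn_le_right (K M : Subgroup G) : coreIn K M ≤ M :=
  fun _ hx => (mem_coreIn_iff.mp hx).1

theorem le_normalizer_coreIn (K M : Subgroup G) :
    M ≤ Subgroup.normalizer (coreIn K M : Set G) := by
  have key : ∀ m ∈ M, ∀ x ∈ coreIn K M, m * x * m⁻¹ ∈ coreIn K M := by
    intro m hm x hx
    obtain ⟨hxM, h⟩ := mem_coreIn_iff.mp hx
    refine mem_coreIn_iff.mpr ⟨M.mul_mem (M.mul_mem hm hxM) (M.inv_mem hm), fun m' hm' => ?_⟩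
    have h1 := h (m' * m) (M.mul_mem hm' hm)
    have e : m' * m * x * (m' * m)⁻¹ = m' * (m * x * m⁻¹) * m'⁻¹ := by group
    rwa [e] at h1
  intro m hm
  apply mem_normalizer_of_conj_mem (key m hm)
  intro x hx
  simpa using key m⁻¹ (M.inv_mem hm) x hx

theorem le_coreIn {K M X : Subgroup G} (hXM : X ≤ M) (hXK : X ≤ K)
    (hn : M ≤ Subgroup.normalizer (X : Set G)) : X ≤ coreIn K M := by
  intro x hx
  exact mem_coreIn_iff.mpr ⟨hXM hx, fun m hm => hXK (conj_mem_of_mem_normalizer (hn hm) hx)⟩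

/-- The normalizer of a nontrivial normal subgroup of a core-free maximal subgroup `M` is `M`. -/
theorem normalizer_le_of_isCoatom {M X : Subgroup G} (hM : IsCoatom M) (hc : M.normalCore = ⊥)
    (hX : X ≠ ⊥) (hXM : X ≤ M) (hn : M ≤ Subgroup.normalizer (X : Set G)) :
    Subgroup.normalizer (X : Set G) ≤ M := by
  rcases eq_or_lt_of_le hn with h | h
  · exact h.symm.le
  · have htop := hM.2 _ h
    exfalso
    apply hX
    have hXn : X.Normal := Subgroup.normalizer_eq_top_iff.mp htop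
    have h1 : X ≤ M.normalCore := Subgroup.normal_le_normalCore.mpr hXM
    rw [hc] at h1
    exact le_bot_iff.mp h1

theorem centralizer_le_of_isCoatom {M X : Subgroup G} (hM : IsCoatom M) (hc : M.normalCore = ⊥)
    (hX : X ≠ ⊥) (hXM : X ≤ M) (hn : M ≤ Subgroup.normalizer (X : Set G)) :
    Subgroup.centralizer (X : Set G) ≤ M :=
  (Subgroup.centralizer_le_normalizer _).trans (normalizer_le_of_isCoatom hM hc hX hXM hn)

/-- The Thompson–Wielandt configuration: two distinct core-free maximal subgroups `M`, `N`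
(with `O_q` of the same order for every prime `q`, e.g. conjugate),
`A = core_M(M ∩ N)`, `B = core_N(M ∩ N)`, `P = core_M(A ∩ B) ≠ 1`, `R = core_N(A ∩ B) ≠ 1`. -/
structure Cfg (M N A B P R : Subgroup G) : Prop where
  hM : IsCoatom M
  hN : IsCoatom N
  hne : M ≠ N
  hcM : M.normalCore = ⊥
  hcN : N.normalCore = ⊥
  hA : A = coreIn (M ⊓ N) M
  hB : B = coreIn (M ⊓ N) N
  hP : P = coreIn (A ⊓ B) M
  hR : R = coreIn (A ⊓ B) N
  hP1 : P ≠ ⊥
  hR1 : R ≠ ⊥
  hcard : ∀ q : ℕ, q.Prime → Nat.card (pcOf q M) = Nat.card (pcOf q N)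

namespace Cfg

variable {M N A B P R : Subgroup G}

theorem symm (h : Cfg M N A B P R) : Cfg N M B A R P where
  hM := h.hN
  hN := h.hM
  hne := h.hne.symm
  hcM := h.hcN
  hcN := h.hcM
  hA := by rw [inf_comm]; exact h.hB
  hB := by rw [inf_comm]; exact h.hA
  hP := by rw [inf_comm]; exact h.hR
  hR := by rw [inf_comm]; exact h.hP
  hP1 := h.hR1
  hR1 := h.hP1
  hcard := fun q hq => (h.hcard q hq).symm

theorem A_le_M (h : Cfg M N A B P R) : A ≤ M := by rw [h.hA]; exact coreIn_le_right _ _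
theorem A_le_N (h : Cfg M N A B P R) : A ≤ N := by
  rw [h.hA]; exact (coreIn_le_left _ _).trans inf_le_right
theorem B_le_N (h : Cfg M N A B P R) : B ≤ N := h.symm.A_le_M
theorem B_le_M (h : Cfg M N A B P R) : B ≤ M := h.symm.A_le_N
theorem P_le_A (h : Cfg M N A B P R) : P ≤ A := by
  rw [h.hP]; exact (coreIn_le_left _ _).trans inf_le_left
theorem P_le_B (h : Cfg M N A B P R) : P ≤ B := by
  rw [h.hP]; exact (coreIn_le_left _ _).trans inf_le_right
theorem R_le_B (h : Cfg M N A B P R) : R ≤ B := h.symm.P_le_A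
theorem R_le_A (h : Cfg M N A B P R) : R ≤ A := h.symm.P_le_B
theorem P_le_M (h : Cfg M N A B P R) : P ≤ M := h.P_le_A.trans h.A_le_M
theorem P_le_N (h : Cfg M N A B P R) : P ≤ N := h.P_le_A.trans h.A_le_N
theorem R_le_M (h : Cfg M N A B P R) : R ≤ M := h.R_le_A.trans h.A_le_M
theorem R_le_N (h : Cfg M N A B P R) : R ≤ N := h.R_le_A.trans h.A_le_N

theorem M_norm_A (h : Cfg M N A B P R) : M ≤ Subgroup.normalizer (A : Set G) := by
  rw [h.hA]; exact le_normalizer_coreIn _ _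
theorem N_norm_B (h : Cfg M N A B P R) : N ≤ Subgroup.normalizer (B : Set G) := h.symm.M_norm_A
theorem M_norm_P (h : Cfg M N A B P R) : M ≤ Subgroup.normalizer (P : Set G) := by
  rw [h.hP]; exact le_normalizer_coreIn _ _
theorem N_norm_R (h : Cfg M N A B P R) : N ≤ Subgroup.normalizer (R : Set G) := h.symm.M_norm_P

/-- membership in `A`: an element of `M` all of whose `M`-conjugates lie in `N`. -/
theorem mem_A_of (h : Cfg M N A B P R) {x : G} (hx : x ∈ M)
    (hc : ∀ m ∈ M, m * x * m⁻¹ ∈ N) : x ∈ A := by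
  rw [h.hA]
  exact mem_coreIn_iff.mpr
    ⟨hx, fun m hm => ⟨M.mul_mem (M.mul_mem hm hx) (M.inv_mem hm), hc m hm⟩⟩

/-- membership in `B`: an element of `N` all of whose `N`-conjugates lie in `M`. -/
theorem mem_B_of (h : Cfg M N A B P R) {x : G} (hx : x ∈ N)
    (hc : ∀ n ∈ N, n * x * n⁻¹ ∈ M) : x ∈ B := h.symm.mem_A_of hx hc

/-- an `M`-invariant subgroup of `M ∩ N` lies in `A`. -/
theorem le_A_of (h : Cfg M N A B P R) {X : Subgroup G} (hXM : X ≤ M) (hXN : X ≤ N)
    (hn : M ≤ Subgroup.normalizer (X : Set G)) : X ≤ A := by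
  rw [h.hA]; exact le_coreIn hXM (le_inf hXM hXN) hn

theorem le_B_of (h : Cfg M N A B P R) {X : Subgroup G} (hXM : X ≤ M) (hXN : X ≤ N)
    (hn : N ≤ Subgroup.normalizer (X : Set G)) : X ≤ B := h.symm.le_A_of hXN hXM hn

/-- an `M`-invariant subgroup of `A ∩ B` lies in `P`. -/
theorem le_P_of (h : Cfg M N A B P R) {X : Subgroup G} (hXA : X ≤ A) (hXB : X ≤ B)
    (hn : M ≤ Subgroup.normalizer (X : Set G)) : X ≤ P := by
  rw [h.hP]; exact le_coreIn (hXA.trans h.A_le_M) (le_inf hXA hXB) hn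

theorem le_R_of (h : Cfg M N A B P R) {X : Subgroup G} (hXA : X ≤ A) (hXB : X ≤ B)
    (hn : N ≤ Subgroup.normalizer (X : Set G)) : X ≤ R := h.symm.le_P_of hXB hXA hn

/-- the centralizer of a nontrivial `M`-invariant subgroup of `M` lies in `M`. -/
theorem cent_le_M (h : Cfg M N A B P R) {X : Subgroup G} (hX : X ≠ ⊥) (hXM : X ≤ M)
    (hn : M ≤ Subgroup.normalizer (X : Set G)) : Subgroup.centralizer (X : Set G) ≤ M :=
  centralizer_le_of_isCoatom h.hM h.hcM hX hXM hn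

theorem norm_le_M (h : Cfg M N A B P R) {X : Subgroup G} (hX : X ≠ ⊥) (hXM : X ≤ M)
    (hn : M ≤ Subgroup.normalizer (X : Set G)) : Subgroup.normalizer (X : Set G) ≤ M :=
  normalizer_le_of_isCoatom h.hM h.hcM hX hXM hn

theorem cent_le_N (h : Cfg M N A B P R) {X : Subgroup G} (hX : X ≠ ⊥) (hXN : X ≤ N)
    (hn : N ≤ Subgroup.normalizer (X : Set G)) : Subgroup.centralizer (X : Set G) ≤ N :=
  h.symm.cent_le_M hX hXN hn

theorem norm_le_N (h : Cfg M N A B P R) {X : Subgroup G} (hX : X ≠ ⊥) (hXN : X ≤ N)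
    (hn : N ≤ Subgroup.normalizer (X : Set G)) : Subgroup.normalizer (X : Set G) ≤ N :=
  h.symm.norm_le_M hX hXN hn

theorem sup_eq_top (h : Cfg M N A B P R) : M ⊔ N = ⊤ := by
  apply h.hM.2
  refine lt_of_le_of_ne le_sup_left (fun heq => ?_)
  have hNM : N ≤ M := by rw [heq]; exact le_sup_right
  rcases eq_or_lt_of_le hNM with h1 | h1
  · exact h.hne h1.symm
  · exact h.hM.1 (h.hN.2 _ h1)

/-- a subgroup of `M` normalized by `M` and by `N` is trivial. -/
theorem eq_bot_of_normalized (h : Cfg M N A B P R) {X : Subgroup G} (hXM : X ≤ M)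
    (hm : M ≤ Subgroup.normalizer (X : Set G)) (hn : N ≤ Subgroup.normalizer (X : Set G)) :
    X = ⊥ := by
  have htop : Subgroup.normalizer (X : Set G) = ⊤ := by
    rw [eq_top_iff, ← h.sup_eq_top]; exact sup_le hm hn
  have hXn : X.Normal := Subgroup.normalizer_eq_top_iff.mp htop
  have h1 : X ≤ M.normalCore := Subgroup.normal_le_normalCore.mpr hXM
  rw [h.hcM] at h1
  exact le_bot_iff.mp h1

/-- **Key lemma D0**: if `X₀ ≠ 1` is an `M`-invariant subgroup of `M` contained in the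
`N`-invariant subgroup `Xp`, then every element of `N` centralizing `Xp` lies in `B`. -/
theorem mem_B_of_centralizes (h : Cfg M N A B P R) {X₀ Xp : Subgroup G} (hX0 : X₀ ≠ ⊥)
    (hX0M : X₀ ≤ M) (hX0n : M ≤ Subgroup.normalizer (X₀ : Set G)) (hle : X₀ ≤ Xp)
    (hXpN : N ≤ Subgroup.normalizer (Xp : Set G)) {z : G} (hz : z ∈ N)
    (hc : ∀ x ∈ Xp, z * x = x * z) : z ∈ B := by
  apply h.mem_B_of hz
  intro n hn
  apply h.cent_le_M hX0 hX0M hX0n
  rw [Subgroup.mem_centralizer_iff]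
  intro x hx
  have hx' : n⁻¹ * x * n ∈ Xp := conj_mem_of_mem_normalizer' (hXpN hn) (hle hx)
  have e := hc _ hx'
  calc x * (n * z * n⁻¹) = n * ((n⁻¹ * x * n) * z) * n⁻¹ := by group
    _ = n * (z * (n⁻¹ * x * n)) * n⁻¹ := by rw [e]
    _ = n * z * n⁻¹ * x := by group

/-- **Lemma N** (normalizer growth): if `O_q(N) ≤ M` and `O_q(M) ∩ N ≤ O_q(N)` then
`O_q(N) = 1`. -/
theorem lemN [Finite G] (h : Cfg M N A B P R) {q : ℕ} [hq : Fact q.Prime]
    (h1 : pcOf q N ≤ M) (h2 : pcOf q M ⊓ N ≤ pcOf q N) : pcOf q N = ⊥ := by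
  by_contra hne
  have hTp : IsPGroup q (pcOf q M) := pcOf_isPGroup q M
  have hT'p : IsPGroup q (pcOf q N) := pcOf_isPGroup q N
  have hT'N : pcOf q N ≤ N := pcOf_le q N
  have hNT' : N ≤ Subgroup.normalizer (pcOf q N : Set G) := le_normalizer_pcOf q N
  have hMT : M ≤ Subgroup.normalizer (pcOf q M : Set G) := le_normalizer_pcOf q M
  have hnormT' : Subgroup.normalizer (pcOf q N : Set G) ≤ N := h.norm_le_N hne hT'N hNT'
  have hT'T : pcOf q N ≤ Subgroup.normalizer (pcOf q M : Set G) := h1.trans hMT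
  have hJ : IsPGroup q (pcOf q M ⊔ pcOf q N : Subgroup G) := hTp.to_sup_of_normal_left' hT'p hT'T
  have hle : pcOf q M ⊔ pcOf q N ≤ pcOf q N := by
    by_contra hcon
    have hlt : pcOf q N < pcOf q M ⊔ pcOf q N :=
      lt_of_le_of_ne le_sup_right (fun heq => hcon heq.symm.le)
    obtain ⟨j, hj, hjn⟩ := SetLike.exists_of_lt (lt_inf_normalizer hJ hlt)
    have hjN : j ∈ N := hnormT' hj.2
    have hj' : j ∈ ((pcOf q M ⊔ pcOf q N : Subgroup G) : Set G) := hj.1
    rw [Subgroup.coe_mul_of_right_le_normalizer_left (pcOf q M) (pcOf q N) hT'T] at hj'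
    obtain ⟨t, ht, t', ht', rfl⟩ := hj'
    have htN : t ∈ N := by
      have e : t = (t * t') * t'⁻¹ := by group
      rw [e]; exact N.mul_mem hjN (N.inv_mem (hT'N ht'))
    exact hjn ((pcOf q N).mul_mem (h2 ⟨ht, htN⟩) ht')
  have hTT' : pcOf q M ≤ pcOf q N := le_sup_left.trans hle
  have heq : pcOf q M = pcOf q N :=
    Subgroup.eq_of_le_of_card_ge hTT' (h.hcard q hq.out).ge
  apply hne
  apply h.eq_bot_of_normalized (heq ▸ pcOf_le q M) (heq ▸ hMT) hNT'

end Cfg

end Cfsg.Agent.Lib.Helper49.TW
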