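import Mathlib
import Cfsg.Prelude.Def_Local
import Cfsg.Prelude.Def_Solvable
import Cfsg.Agent.Lib.Helper49.TW.TWDefs
import Cfsg.Agent.Lib.Helper22.Fstar
import Cfsg.Agent.Lib.Helper22.PConstr
import Cfsg.Agent.Lib.Helper47.Frat2
import Cfsg.Agent.Lib.Helper30.Bender

set_option autoImplicit false

/-! Thompson–Wielandt (S5752): `M ∩ N`, `A`, `P` have no components; existence of a prime `p`
with `O_p(P) ≠ 1`. -/

namespace Cfsg.Agent.Lib.Helper49.TW

open Cfsg Cfsg.Agent.Lib.Helper31 Cfsg.Agent.Lib.Helper22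
open scoped commutatorElement

universe u

variable {G : Type u} [Group G]

/-- The layer of a subgroup, inside the ambient group. -/
def layOf (X : Subgroup G) : Subgroup G := (Cfsg.layer ↥X).map X.subtype

theorem layOf_le (X : Subgroup G) : layOf X ≤ X := Subgroup.map_subtype_le _

theorem layOf_eq_bot_iff {X : Subgroup G} : layOf X = ⊥ ↔ Cfsg.layer ↥X = ⊥ :=
  Subgroup.map_eq_bot_iff_of_injective _ X.subtype_injective

theorem normalizer_le_normalizer_layOf (X : Subgroup G) :
    Subgroup.normalizer (X : Set G) ≤ Subgroup.normalizer (layOf X : Set G) :=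
  Cfsg.Agent.Lib.Helper47.normalizer_le_normalizer_map_subtype_of_characteristic X (Cfsg.layer ↥X)

/-- the layer of a normal subgroup `A` of `H` lies in the layer of `H`. -/
theorem layOf_le_layOf_of_normal {A H : Subgroup G} (hAH : A ≤ H)
    (hn : H ≤ Subgroup.normalizer (A : Set G)) : layOf A ≤ layOf H := by
  have hnorm : (A.subgroupOf H).Normal :=
    (Subgroup.normal_subgroupOf_iff_le_normalizer hAH).mpr hn
  have h1 := layer_map_subtype_le_of_subnormal (G := ↥H) hnorm.isSubnormal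
  have h2 := Subgroup.map_mono (f := H.subtype) h1
  rw [functor_subgroupOf_map (fun X _ => Cfsg.layer X) (fun _ _ _ _ φ => layer_map_equiv φ) hAH]
    at h2
  exact h2

/-- if every component of `H` lies in `A ≤ H`, the layer of `H` lies in the layer of `A`. -/
theorem layOf_le_layOf_of_components {A H : Subgroup G} (hAH : A ≤ H)
    (hc : ∀ K : Subgroup ↥H, Cfsg.IsComponent K → K ≤ A.subgroupOf H) : layOf H ≤ layOf A := by
  have h1 : Cfsg.layer ↥H ≤ (Cfsg.layer ↥(A.subgroupOf H)).map (A.subgroupOf H).subtype := by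
    rw [layer_le_iff]
    intro K hK
    exact component_le_map_layer hK (hc K hK)
  have h2 := Subgroup.map_mono (f := H.subtype) h1
  rw [functor_subgroupOf_map (fun X _ => Cfsg.layer X) (fun _ _ _ _ φ => layer_map_equiv φ) hAH]
    at h2
  exact h2

namespace Cfg

variable {M N A B P R : Subgroup G}

/-- every component of a subgroup `H` with `B ≤ H ≤ N` lies in `B`. -/
theorem comp_le_B [Finite G] (h : Cfg M N A B P R) {H : Subgroup G} (hHN : H ≤ N) (hBH : B ≤ H)
    {K : Subgroup ↥H} (hK : Cfsg.IsComponent K) : K ≤ B.subgroupOf H := by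
  have hnorm : (B.subgroupOf H).Normal :=
    (Subgroup.normal_subgroupOf_iff_le_normalizer hBH).mpr (hHN.trans h.N_norm_B)
  rcases component_le_or_commute_normal hK hnorm with h1 | h1
  · exact h1
  · intro k hk
    rw [Subgroup.mem_subgroupOf]
    apply h.mem_B_of_centralizes h.hP1 h.P_le_M h.M_norm_P h.P_le_B h.N_norm_B (hHN k.2)
    intro x hx
    have h2 : ⁅k, (⟨x, hBH hx⟩ : ↥H)⁆ ∈ (⁅K, B.subgroupOf H⁆ : Subgroup ↥H) :=
      Subgroup.commutator_mem_commutator hk (Subgroup.mem_subgroupOf.mpr hx)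
    rw [h1, Subgroup.mem_bot, commutatorElement_eq_one_iff_mul_comm] at h2
    exact congrArg Subtype.val h2

theorem comp_le_A [Finite G] (h : Cfg M N A B P R) {H : Subgroup G} (hHM : H ≤ M) (hAH : A ≤ H)
    {K : Subgroup ↥H} (hK : Cfsg.IsComponent K) : K ≤ A.subgroupOf H :=
  h.symm.comp_le_B hHM hAH hK

/-- `E(M ∩ N) = 1`. -/
theorem layOf_inf_eq_bot [Finite G] (h : Cfg M N A B P R) : layOf (M ⊓ N) = ⊥ := by
  have hAH : A ≤ M ⊓ N := le_inf h.A_le_M h.A_le_N
  have hBH : B ≤ M ⊓ N := le_inf h.B_le_M h.B_le_N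
  have hA : layOf (M ⊓ N) = layOf A :=
    le_antisymm
      (layOf_le_layOf_of_components hAH (fun K hK => h.comp_le_A inf_le_left hAH hK))
      (layOf_le_layOf_of_normal hAH (inf_le_left.trans h.M_norm_A))
  have hB : layOf (M ⊓ N) = layOf B :=
    le_antisymm
      (layOf_le_layOf_of_components hBH (fun K hK => h.comp_le_B inf_le_right hBH hK))
      (layOf_le_layOf_of_normal hBH (inf_le_right.trans h.N_norm_B))
  apply h.eq_bot_of_normalized ((layOf_le _).trans inf_le_left)
  · rw [hA]; exact h.M_norm_A.trans (normalizer_le_normalizer_layOf A)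
  · rw [hB]; exact h.N_norm_B.trans (normalizer_le_normalizer_layOf B)

/-- `E(A) = 1`. -/
theorem layer_A_eq_bot [Finite G] (h : Cfg M N A B P R) : Cfsg.layer ↥A = ⊥ := by
  rw [← layOf_eq_bot_iff, ← le_bot_iff, ← h.layOf_inf_eq_bot]
  exact layOf_le_layOf_of_normal (le_inf h.A_le_M h.A_le_N) (inf_le_left.trans h.M_norm_A)

/-- `E(P) = 1`. -/
theorem layer_P_eq_bot [Finite G] (h : Cfg M N A B P R) : Cfsg.layer ↥P = ⊥ := by
  rw [← layOf_eq_bot_iff, ← le_bot_iff, ← h.layOf_inf_eq_bot]
  exact layOf_le_layOf_of_normal (le_inf h.P_le_M h.P_le_N) (inf_le_left.trans h.M_norm_P)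

end Cfg

/-- a nontrivial finite group without components has `O_p ≠ 1` for some prime `p`. -/
theorem exists_pCore_ne_bot (X : Type u) [Group X] [Finite X] [Nontrivial X]
    (hE : Cfsg.layer X = ⊥) : ∃ p : ℕ, p.Prime ∧ Cfsg.pCore p X ≠ ⊥ := by
  have hB := Cfsg.Agent.Lib.Helper30.centralizer_generalizedFittingSubgroup_le X
  have hF : Cfsg.generalizedFittingSubgroup X = Cfsg.fittingSubgroup X := by
    unfold Cfsg.generalizedFittingSubgroup
    rw [hE, bot_sup_eq]
  rw [hF] at hB
  have hFne : Cfsg.fittingSubgroup X ≠ ⊥ := by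
    intro h0
    rw [h0] at hB
    have h1 : (⊤ : Subgroup X) ≤ ⊥ := by
      refine le_trans ?_ hB
      intro x _
      rw [Subgroup.mem_centralizer_iff]
      intro y hy
      have hy1 : y = 1 := hy
      rw [hy1]; simp
    exact top_ne_bot (le_bot_iff.mp h1)
  have hnil : Group.IsNilpotent (Cfsg.fittingSubgroup X) := fittingSubgroup_nilpotent X
  have hcard : Nat.card (Cfsg.fittingSubgroup X) ≠ 1 := by
    intro h1
    exact hFne ((Subgroup.card_eq_one).mp h1)
  obtain ⟨p, hp, hpd⟩ := Nat.exists_prime_and_dvd hcard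
  refine ⟨p, hp, ?_⟩
  have : Fact p.Prime := ⟨hp⟩
  obtain ⟨S⟩ : Nonempty (Sylow p (Cfsg.fittingSubgroup X)) := inferInstance
  have hSn : (S : Subgroup (Cfsg.fittingSubgroup X)).Normal := inferInstance
  have hSsn : ((S : Subgroup (Cfsg.fittingSubgroup X)).map
      (Cfsg.fittingSubgroup X).subtype).IsSubnormal :=
    Subgroup.IsSubnormal.trans' hSn.isSubnormal (fittingSubgroup_normal' X).isSubnormal
  have hSp : IsPGroup p ((S : Subgroup (Cfsg.fittingSubgroup X)).map
      (Cfsg.fittingSubgroup X).subtype) := S.isPGroup'.map _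
  have hle := Cfsg.Agent.Lib.Helper47.le_pCore_of_isSubnormal_of_isPGroup hSsn hSp
  intro h0
  rw [h0, le_bot_iff, Subgroup.map_eq_bot_iff_of_injective _ (Subgroup.subtype_injective _)]
    at hle
  exact S.ne_bot_of_dvd_card hpd hle

namespace Cfg

variable {M N A B P R : Subgroup G}

/-- there is a prime `p` with `O_p(P) ≠ 1`. -/
theorem exists_seed [Finite G] (h : Cfg M N A B P R) : ∃ p : ℕ, p.Prime ∧ pcOf p P ≠ ⊥ := by
  have hnt : Nontrivial ↥P := (Subgroup.nontrivial_iff_ne_bot P).mpr h.hP1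
  obtain ⟨p, hp, hne⟩ := exists_pCore_ne_bot ↥P h.layer_P_eq_bot
  refine ⟨p, hp, fun h0 => hne ?_⟩
  exact (Subgroup.map_eq_bot_iff_of_injective _ P.subtype_injective).mp h0

end Cfg

end Cfsg.Agent.Lib.Helper49.TW
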