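import Mathlib
import Cfsg.Prelude.Def_Local
import Cfsg.Prelude.Def_Solvable
import Cfsg.Agent.Lib.Helper49.TW.TWDefs
import Cfsg.Agent.Lib.Helper49.TW.TWLayer
import Cfsg.Agent.Lib.Helper49.CharP
import Cfsg.Agent.Lib.Helper47.Subn

set_option autoImplicit false

/-! Thompson–Wielandt (S5752): the prime `p`; `P` and `R` are `p`-groups. -/

namespace Cfsg.Agent.Lib.Helper49.TW

open Cfsg Cfsg.Agent.Lib.Helper31

universe u

variable {G : Type u} [Group G]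

/-- two subgroups that normalize each other and meet trivially commute elementwise. -/
theorem comm_of_normalize_of_inf_eq_bot {U V : Subgroup G}
    (hUV : U ≤ Subgroup.normalizer (V : Set G)) (hVU : V ≤ Subgroup.normalizer (U : Set G))
    (hd : U ⊓ V = ⊥) {u v : G} (hu : u ∈ U) (hv : v ∈ V) : u * v = v * u := by
  have h1 : u * v * u⁻¹ * v⁻¹ ∈ U ⊓ V := by
    constructor
    · have h2 : v * u⁻¹ * v⁻¹ ∈ U := conj_mem_of_mem_normalizer (hVU hv) (U.inv_mem hu)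
      have e : u * v * u⁻¹ * v⁻¹ = u * (v * u⁻¹ * v⁻¹) := by group
      rw [e]; exact U.mul_mem hu h2
    · have h2 : u * v * u⁻¹ ∈ V := conj_mem_of_mem_normalizer (hUV hu) hv
      exact V.mul_mem h2 (V.inv_mem hv)
  rw [hd, Subgroup.mem_bot] at h1
  calc u * v = (u * v * u⁻¹ * v⁻¹) * (v * u) := by group
    _ = v * u := by rw [h1, one_mul]

namespace Cfg

variable {M N A B P R : Subgroup G}

theorem N_norm_pcOf_B (h : Cfg M N A B P R) (p : ℕ) [Fact p.Prime] :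
    N ≤ Subgroup.normalizer (pcOf p B : Set G) :=
  h.N_norm_B.trans (normalizer_le_normalizer_pcOf p B)

theorem pcOf_B_le_pcOf_N (h : Cfg M N A B P R) (p : ℕ) [Fact p.Prime] : pcOf p B ≤ pcOf p N :=
  le_pcOf ((pcOf_le p B).trans h.B_le_N) (h.N_norm_pcOf_B p) (pcOf_isPGroup p B)

theorem M_norm_pcOf_P (h : Cfg M N A B P R) (p : ℕ) [Fact p.Prime] :
    M ≤ Subgroup.normalizer (pcOf p P : Set G) :=
  h.M_norm_P.trans (normalizer_le_normalizer_pcOf p P)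

theorem pcOf_P_le_pcOf_B (h : Cfg M N A B P R) (p : ℕ) [Fact p.Prime] : pcOf p P ≤ pcOf p B :=
  le_pcOf ((pcOf_le p P).trans h.P_le_B) (h.B_le_M.trans (h.M_norm_pcOf_P p)) (pcOf_isPGroup p P)

/-- `B` normalizes `O_q(M) ∩ N`. -/
theorem B_norm_inf (h : Cfg M N A B P R) (q : ℕ) :
    B ≤ Subgroup.normalizer ((pcOf q M ⊓ N : Subgroup G) : Set G) := fun _ hb =>
  mem_normalizer_inf (le_normalizer_pcOf q M (h.B_le_M hb)) (Subgroup.le_normalizer (h.B_le_N hb))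

/-- D0 for `O_p(B)`, with seed `O_p(P) ≠ 1`. -/
theorem mem_B_of_centralizes_pcOf (h : Cfg M N A B P R) {p : ℕ} [Fact p.Prime]
    (hseed : pcOf p P ≠ ⊥) {z : G} (hz : z ∈ N) (hc : ∀ x ∈ pcOf p B, z * x = x * z) : z ∈ B :=
  h.mem_B_of_centralizes hseed ((pcOf_le p P).trans h.P_le_M) (h.M_norm_pcOf_P p)
    (h.pcOf_P_le_pcOf_B p) (h.N_norm_pcOf_B p) hz hc

/-- **L3**: if `O_p(P) ≠ 1` then `O_q(N) = 1` for every prime `q ≠ p`. -/
theorem pcOf_N_eq_bot_of_ne [Finite G] (h : Cfg M N A B P R) {p q : ℕ} [hp : Fact p.Prime]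
    [hq : Fact q.Prime] (hseed : pcOf p P ≠ ⊥) (hqp : q ≠ p) : pcOf q N = ⊥ := by
  have hXN : N ≤ Subgroup.normalizer (pcOf p B : Set G) := h.N_norm_pcOf_B p
  have hXp : IsPGroup p (pcOf p B) := pcOf_isPGroup p B
  have hXB : pcOf p B ≤ B := pcOf_le p B
  apply h.lemN
  · intro t ht
    apply h.B_le_M
    apply h.mem_B_of_centralizes_pcOf hseed (pcOf_le q N ht)
    intro x hx
    exact comm_of_normalize_of_inf_eq_bot (U := pcOf q N) (V := pcOf p B)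
      ((pcOf_le q N).trans hXN) ((hXB.trans h.B_le_N).trans (le_normalizer_pcOf q N))
      (IsPGroup.disjoint_of_ne q p hqp _ _ (pcOf_isPGroup q N) hXp).eq_bot ht hx
  · have hSq : IsPGroup q ((pcOf q M ⊓ N : Subgroup G)) := (pcOf_isPGroup q M).to_le inf_le_left
    have hS_B : pcOf q M ⊓ N ≤ B := by
      intro s hs
      apply h.mem_B_of_centralizes_pcOf hseed hs.2
      intro x hx
      exact comm_of_normalize_of_inf_eq_bot (U := pcOf q M ⊓ N) (V := pcOf p B)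
        (inf_le_right.trans hXN) (hXB.trans (h.B_norm_inf q))
        (IsPGroup.disjoint_of_ne q p hqp _ _ hSq hXp).eq_bot hs hx
    have h3 : pcOf q M ⊓ N ≤ pcOf q B := le_pcOf hS_B (h.B_norm_inf q) hSq
    exact h3.trans (h.pcOf_B_le_pcOf_N q)

/-- **L4**: if `O_p(P) ≠ 1` then `P` is a `p`-group. -/
theorem isPGroup_P [Finite G] (h : Cfg M N A B P R) {p : ℕ} [hp : Fact p.Prime]
    (hseed : pcOf p P ≠ ⊥) : IsPGroup p P := by
  by_contra hnp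
  obtain ⟨L, hLdef⟩ : ∃ L : Subgroup G, L = (Cfsg.pResidual p ↥P).map P.subtype := ⟨_, rfl⟩
  have hLcl : L = Subgroup.closure {x : G | x ∈ P ∧ (orderOf x).Coprime p} := by
    rw [hLdef, Cfsg.Agent.Lib.Helper47.pResidual_map_subtype_eq]
  have hLP : L ≤ P := by rw [hLdef]; exact Subgroup.map_subtype_le _
  have hML : M ≤ Subgroup.normalizer (L : Set G) := by
    rw [hLdef]
    exact h.M_norm_P.trans (Cfsg.Agent.Lib.Helper47.normalizer_le_normalizer_pResidual_map p P)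
  have hLne : L ≠ ⊥ := by
    intro h0
    apply hnp
    apply isPGroup_of_coprime_trivial
    intro x hx hxc
    have hxL : x ∈ L := by
      rw [hLcl]; exact Subgroup.subset_closure ⟨hx, hxc⟩
    rw [h0] at hxL
    exact hxL
  have hnormL : Subgroup.normalizer (L : Set G) ≤ M := h.norm_le_M hLne (hLP.trans h.P_le_M) hML
  have hXN : N ≤ Subgroup.normalizer (pcOf p B : Set G) := h.N_norm_pcOf_B p
  have hXp : IsPGroup p (pcOf p B) := pcOf_isPGroup p B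
  have hXL : pcOf p B ≤ Subgroup.normalizer (L : Set G) :=
    ((pcOf_le p B).trans h.B_le_M).trans hML
  -- the key claim
  have key : ∀ S₀ : Subgroup G, IsPGroup p S₀ → S₀ ≤ N →
      B ≤ Subgroup.normalizer (S₀ : Set G) → ∀ s ∈ S₀, ∀ n ∈ N, ∀ x ∈ L,
        (n * s * n⁻¹) * x * (n * s * n⁻¹)⁻¹ ∈ L := by
    intro S₀ hS₀p hS₀N hBS₀ s hs n hn
    have hle : L ≤ L.comap (MulAut.conj (n * s * n⁻¹)).toMonoidHom := by
      conv_lhs => rw [hLcl]
      rw [Subgroup.closure_le]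
      rintro ℓ ⟨hℓP, hℓc⟩
      show (MulAut.conj (n * s * n⁻¹)) ℓ ∈ L
      rw [MulAut.conj_apply]
      have hℓL : ℓ ∈ L := by rw [hLcl]; exact Subgroup.subset_closure ⟨hℓP, hℓc⟩
      have hℓ' : n⁻¹ * ℓ * n ∈ B := conj_mem_of_mem_normalizer' (h.N_norm_B hn) (h.P_le_B hℓP)
      have hc1 : s * (n⁻¹ * ℓ * n) * s⁻¹ * (n⁻¹ * ℓ * n)⁻¹ ∈ S₀ := by
        have h2 : (n⁻¹ * ℓ * n) * s⁻¹ * (n⁻¹ * ℓ * n)⁻¹ ∈ S₀ :=
          conj_mem_of_mem_normalizer (hBS₀ hℓ') (S₀.inv_mem hs)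
        have e : s * (n⁻¹ * ℓ * n) * s⁻¹ * (n⁻¹ * ℓ * n)⁻¹ =
            s * ((n⁻¹ * ℓ * n) * s⁻¹ * (n⁻¹ * ℓ * n)⁻¹) := by group
        rw [e]; exact S₀.mul_mem hs h2
      have hc2 : s * (n⁻¹ * ℓ * n) * s⁻¹ * (n⁻¹ * ℓ * n)⁻¹ ∈ B := by
        have h2 : s * (n⁻¹ * ℓ * n) * s⁻¹ ∈ B :=
          conj_mem_of_mem_normalizer (h.N_norm_B (hS₀N hs)) hℓ'
        exact B.mul_mem h2 (B.inv_mem hℓ')
      have hSB : S₀ ⊓ B ≤ pcOf p B :=
        le_pcOf inf_le_right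
          (fun b hb => mem_normalizer_inf (hBS₀ hb) (Subgroup.le_normalizer hb))
          (hS₀p.to_le inf_le_left)
      have hc3 : s * (n⁻¹ * ℓ * n) * s⁻¹ * (n⁻¹ * ℓ * n)⁻¹ ∈ pcOf p B := hSB ⟨hc1, hc2⟩
      have hc4 : n * (s * (n⁻¹ * ℓ * n) * s⁻¹ * (n⁻¹ * ℓ * n)⁻¹) * n⁻¹ ∈ pcOf p B :=
        conj_mem_of_mem_normalizer (hXN hn) hc3
      have e : n * s * n⁻¹ * ℓ * (n * s * n⁻¹)⁻¹ =
          (n * (s * (n⁻¹ * ℓ * n) * s⁻¹ * (n⁻¹ * ℓ * n)⁻¹) * n⁻¹) * ℓ := by group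
      have hmem : n * s * n⁻¹ * ℓ * (n * s * n⁻¹)⁻¹ ∈ pcOf p B ⊔ L := by
        rw [e]
        exact Subgroup.mul_mem _ (Subgroup.mem_sup_left hc4) (Subgroup.mem_sup_right hℓL)
      have hord : (orderOf (n * s * n⁻¹ * ℓ * (n * s * n⁻¹)⁻¹)).Coprime p := by
        have e2 : orderOf (n * s * n⁻¹ * ℓ * (n * s * n⁻¹)⁻¹) = orderOf ℓ := by
          have := (MulAut.conj (n * s * n⁻¹)).orderOf_eq ℓ
          rwa [MulAut.conj_apply] at this
        rw [e2]; exact hℓc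
      exact Cfsg.Agent.Lib.Helper47.mem_of_mem_sup_of_coprime_of_le_normalizer hXL hXp hmem hord
    intro x hx
    have := hle hx
    rwa [Subgroup.mem_comap, MulEquiv.coe_toMonoidHom, MulAut.conj_apply] at this
  have key2 : ∀ S₀ : Subgroup G, IsPGroup p S₀ → S₀ ≤ N →
      B ≤ Subgroup.normalizer (S₀ : Set G) → ∀ s ∈ S₀, ∀ n ∈ N, n * s * n⁻¹ ∈ M := by
    intro S₀ hS₀p hS₀N hBS₀ s hs n hn
    apply hnormL
    apply mem_normalizer_of_conj_mem (key S₀ hS₀p hS₀N hBS₀ s hs n hn)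
    intro x hx
    have h2 := key S₀ hS₀p hS₀N hBS₀ s⁻¹ (S₀.inv_mem hs) n hn x hx
    have e : n * s⁻¹ * n⁻¹ * x * (n * s⁻¹ * n⁻¹)⁻¹ = (n * s * n⁻¹)⁻¹ * x * (n * s * n⁻¹) := by
      group
    rwa [e] at h2
  -- apply Lemma N
  have h1 : pcOf p N ≤ M := by
    intro s hs
    have h2 := key2 (pcOf p N) (pcOf_isPGroup p N) (pcOf_le p N)
      (h.B_le_N.trans (le_normalizer_pcOf p N)) s hs 1 N.one_mem
    simpa using h2
  have hSp : IsPGroup p ((pcOf p M ⊓ N : Subgroup G)) := (pcOf_isPGroup p M).to_le inf_le_left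
  have hS_B : pcOf p M ⊓ N ≤ B := by
    intro s hs
    exact h.mem_B_of hs.2 (fun n hn => key2 (pcOf p M ⊓ N) hSp inf_le_right (h.B_norm_inf p) s hs n hn)
  have h2 : pcOf p M ⊓ N ≤ pcOf p N :=
    (le_pcOf hS_B (h.B_norm_inf p) hSp).trans (h.pcOf_B_le_pcOf_N p)
  have h3 : pcOf p N = ⊥ := h.lemN h1 h2
  apply hseed
  have h4 : pcOf p P ≤ pcOf p N := (h.pcOf_P_le_pcOf_B p).trans (h.pcOf_B_le_pcOf_N p)
  rw [h3] at h4
  exact le_bot_iff.mp h4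

/-- **L2–L5**: there is a prime `p` such that `P` and `R` are `p`-groups. -/
theorem exists_prime [Finite G] (h : Cfg M N A B P R) :
    ∃ p : ℕ, p.Prime ∧ IsPGroup p P ∧ IsPGroup p R := by
  obtain ⟨p, hp, hseedP⟩ := h.exists_seed
  obtain ⟨r, hr, hseedR⟩ := h.symm.exists_seed
  have : Fact p.Prime := ⟨hp⟩
  have : Fact r.Prime := ⟨hr⟩
  have hpr : p = r := by
    by_contra hne
    have h1 : pcOf p M = ⊥ := h.symm.pcOf_N_eq_bot_of_ne hseedR hne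
    have h2 : pcOf p P ≤ pcOf p M :=
      le_pcOf ((pcOf_le p P).trans h.P_le_M) (h.M_norm_pcOf_P p) (pcOf_isPGroup p P)
    rw [h1] at h2
    exact hseedP (le_bot_iff.mp h2)
  subst hpr
  exact ⟨p, hp, h.isPGroup_P hseedP, h.symm.isPGroup_P hseedR⟩

end Cfg

end Cfsg.Agent.Lib.Helper49.TW
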