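import Mathlib
import Cfsg.Prelude.Def_Local
import Cfsg.Prelude.Def_Solvable
import Cfsg.Agent.Lib.Helper49.TW.TWPrime
import Cfsg.Agent.Lib.Helper49.CharP2
import Cfsg.Agent.Lib.Helper22.PConstr
import Cfsg.Agent.Lib.Helper22.PComp
import Cfsg.Agent.Lib.Helper23.Transport

set_option autoImplicit false

/-! Thompson–Wielandt (S5752): `F*(M) = O_p(M)`, `F*(A) = O_p(A)`; the main theorem. -/

namespace Cfsg.Agent.Lib.Helper49.TW

open Cfsg Cfsg.Agent.Lib.Helper31

universe u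

variable {G : Type u} [Group G]

/-- a subgroup of order prime to `p` meets a `p`-subgroup trivially. -/
theorem inf_eq_bot_of_coprime_of_isPGroup [Finite G] {p : ℕ} [Fact p.Prime] {W X : Subgroup G}
    (hW : (Nat.card W).Coprime p) (hX : IsPGroup p X) : W ⊓ X = ⊥ := by
  obtain ⟨n, hn⟩ := IsPGroup.iff_card.mp hX
  apply Disjoint.eq_bot
  apply Subgroup.disjoint_of_coprime_natCard
  rw [hn]
  exact Nat.Coprime.pow_right n hW

namespace Cfg

variable {M N A B P R : Subgroup G}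

/-- `O_{p'}(A) = 1`. -/
theorem pPrimeCore_A_eq_bot [Finite G] (h : Cfg M N A B P R) {p : ℕ} [Fact p.Prime]
    (hPp : IsPGroup p P) : Cfsg.pPrimeCore p ↥A = ⊥ := by
  obtain ⟨W, hWdef⟩ : ∃ W : Subgroup G, W = (Cfsg.pPrimeCore p ↥A).map A.subtype := ⟨_, rfl⟩
  have hWA : W ≤ A := by rw [hWdef]; exact Subgroup.map_subtype_le _
  have hMW : M ≤ Subgroup.normalizer (W : Set G) := by
    have := Cfsg.Agent.Lib.Helper23.pPrimeCore_characteristic p ↥A
    rw [hWdef]
    exact h.M_norm_A.trans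
      (Cfsg.Agent.Lib.Helper47.normalizer_le_normalizer_map_subtype_of_characteristic A
        (Cfsg.pPrimeCore p ↥A))
  have hWc : (Nat.card W).Coprime p := by
    rw [hWdef, Subgroup.card_map_of_injective (Subgroup.subtype_injective _)]
    exact Cfsg.Agent.Lib.Helper22.card_pPrimeCore_coprime p ↥A
  have hXp : IsPGroup p (pcOf p B) := pcOf_isPGroup p B
  have hPX : P ≤ pcOf p B := le_pcOf h.P_le_B (h.B_le_M.trans h.M_norm_P) hPp
  have hWB : W ≤ B := by
    intro w hw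
    apply h.mem_B_of_centralizes h.hP1 h.P_le_M h.M_norm_P hPX (h.N_norm_pcOf_B p)
      (h.A_le_N (hWA hw))
    intro x hx
    exact comm_of_normalize_of_inf_eq_bot (U := W) (V := pcOf p B)
      ((hWA.trans h.A_le_N).trans (h.N_norm_pcOf_B p))
      (((pcOf_le p B).trans h.B_le_M).trans hMW)
      (inf_eq_bot_of_coprime_of_isPGroup hWc hXp) hw hx
  have hWP : W ≤ P := h.le_P_of hWA hWB hMW
  have hW0 : W = ⊥ := by
    have h1 := inf_eq_bot_of_coprime_of_isPGroup hWc hPp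
    rwa [inf_eq_left.mpr hWP] at h1
  rw [hWdef] at hW0
  exact (Subgroup.map_eq_bot_iff_of_injective _ A.subtype_injective).mp hW0

/-- `C_A(O_p(A)) ≤ O_p(A)`. -/
theorem charp_A [Finite G] (h : Cfg M N A B P R) {p : ℕ} [Fact p.Prime] (hPp : IsPGroup p P) :
    Subgroup.centralizer (Cfsg.pCore p ↥A : Set ↥A) ≤ Cfsg.pCore p ↥A :=
  Cfsg.Agent.Lib.Helper22.centralizer_pCore_le_of_layer_eq_bot (h.pPrimeCore_A_eq_bot hPp)
    h.layer_A_eq_bot

/-- `C_M(O_p(M)) ≤ O_p(M)`. -/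
theorem charp_M [Finite G] (h : Cfg M N A B P R) {p : ℕ} [Fact p.Prime] (hPp : IsPGroup p P)
    (hRp : IsPGroup p R) :
    Subgroup.centralizer (Cfsg.pCore p ↥M : Set ↥M) ≤ Cfsg.pCore p ↥M := by
  have hMV : M ≤ Subgroup.normalizer (pcOf p A : Set G) :=
    h.M_norm_A.trans (normalizer_le_normalizer_pcOf p A)
  have hVM : pcOf p A ≤ M := (pcOf_le p A).trans h.A_le_M
  have hAn : (A.subgroupOf M).Normal :=
    (Subgroup.normal_subgroupOf_iff_le_normalizer h.A_le_M).mpr h.M_norm_A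
  have hVn : ((pcOf p A).subgroupOf M).Normal :=
    (Subgroup.normal_subgroupOf_iff_le_normalizer hVM).mpr hMV
  have hVp : IsPGroup p ((pcOf p A).subgroupOf M) :=
    (pcOf_isPGroup p A).comap_of_injective M.subtype M.subtype_injective
  have hRV : R ≤ pcOf p A := le_pcOf h.R_le_A (h.A_le_N.trans h.N_norm_R) hRp
  refine Cfsg.Agent.Lib.Helper49.charp_of_normal_charp (A.subgroupOf M)
    ((pcOf p A).subgroupOf M) hVp ?_ ?_
  · intro x hx
    rw [Subgroup.mem_subgroupOf]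
    apply h.mem_A_of x.2
    intro m hm
    apply h.cent_le_N h.hR1 h.R_le_N h.N_norm_R
    rw [Subgroup.mem_centralizer_iff]
    intro r hr
    have hr' : m⁻¹ * r * m ∈ pcOf p A := conj_mem_of_mem_normalizer' (hMV hm) (hRV hr)
    have h1 := Subgroup.mem_centralizer_iff.mp hx ⟨m⁻¹ * r * m, hVM hr'⟩
      (Subgroup.mem_subgroupOf.mpr hr')
    have h2 : (m⁻¹ * r * m) * (x : G) = (x : G) * (m⁻¹ * r * m) := congrArg Subtype.val h1
    calc r * (m * (x : G) * m⁻¹) = m * ((m⁻¹ * r * m) * (x : G)) * m⁻¹ := by group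
      _ = m * ((x : G) * (m⁻¹ * r * m)) * m⁻¹ := by rw [h2]
      _ = m * (x : G) * m⁻¹ * r := by group
  · exact Cfsg.Agent.Lib.Helper49.charp_of_equiv (Subgroup.subgroupOfEquivOfLe h.A_le_M).symm
      (h.charp_A hPp)

/-- **Thompson–Wielandt, iterated-core form.** -/
theorem main [Finite G] (h : Cfg M N A B P R) :
    ∃ p : ℕ, p.Prime ∧ IsPGroup p ↥(P ⊔ R) ∧
      Cfsg.generalizedFittingSubgroup ↥M = Cfsg.pCore p ↥M ∧
      Cfsg.generalizedFittingSubgroup ↥A = Cfsg.pCore p ↥A ∧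
      Cfsg.generalizedFittingSubgroup ↥N = Cfsg.pCore p ↥N ∧
      Cfsg.generalizedFittingSubgroup ↥B = Cfsg.pCore p ↥B := by
  obtain ⟨p, hp, hPp, hRp⟩ := h.exists_prime
  have : Fact p.Prime := ⟨hp⟩
  refine ⟨p, hp, hPp.to_sup_of_normal_left' hRp (h.R_le_M.trans h.M_norm_P), ?_, ?_, ?_, ?_⟩
  · exact generalizedFittingSubgroup_eq_pCore (h.charp_M hPp hRp)
  · exact generalizedFittingSubgroup_eq_pCore (h.charp_A hPp)
  · exact generalizedFittingSubgroup_eq_pCore (h.symm.charp_M hRp hPp)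
  · exact generalizedFittingSubgroup_eq_pCore (h.symm.charp_A hRp)

end Cfg

end Cfsg.Agent.Lib.Helper49.TW
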